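import Mathlib
import Cfsg.Agent.Lib.Helper35.JR.Defs
import Cfsg.Agent.Lib.Helper43.AutPSL2.Main

/-!
[KEY0] package of helper35's S3206 ("JR") project: a 2-power-order automorphism of `PSL₂(F)`
fixing `A` and `B` is conjugation by an element of the four-group `V₀`.
-/

set_option autoImplicit false

namespace Cfsg.Agent.Lib.Helper42.JR

open Matrix Cfsg.Agent.Lib.Helper35.JR Cfsg.Agent.Lib.Helper43.AutPSL2

universe u

theorem pkgKey0 : PkgV0.{u} → PkgKey0.{u} := by
  intro hV0 F _ _ h2 a b hab hσ α k hαk hA hB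
  classical
  obtain ⟨p, _, n, hp, hF⟩ := FiniteField.card' F
  have : Fact p.Prime := ⟨hp⟩
  have hf : 1 ≤ (n : ℕ) := n.pos
  obtain ⟨g, c, σ, hα⟩ := aut_structure hf hF α
  have hσ1 : σ = 1 := by
    have htw : twHom hf hF α = σ := by
      rw [hα]
      have := twHom_eq hf hF (tw_mul (tw_mul (tw_conj g) (tw_dAut c)) (tw_fAut σ))
      rw [one_mul, one_mul] at this
      exact this
    apply hσ σ k
    rw [← htw, ← map_pow, hαk, map_one]
  subst hσ1
  rw [fAut_one, map_one, mul_one] at hα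
  obtain ⟨G, rfl⟩ := pm_surjective g
  let D : Matrix (Fin 2) (Fin 2) F := !![(c : F), 0; 0, 1]
  let hm : Matrix (Fin 2) (Fin 2) F := (G : Matrix (Fin 2) (Fin 2) F) * D
  have hcc : (c : F)⁻¹ * (c : F) = 1 := inv_mul_cancel₀ c.ne_zero
  have hkey : ∀ M : Matrix.SpecialLinearGroup (Fin 2) F,
      ((G * dFun c M * G⁻¹ : Matrix.SpecialLinearGroup (Fin 2) F) : Matrix (Fin 2) (Fin 2) F) * hm
        = hm * (M : Matrix (Fin 2) (Fin 2) F) := by
    intro M
    have e1 : ((dFun c M : Matrix.SpecialLinearGroup (Fin 2) F) : Matrix (Fin 2) (Fin 2) F) * D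
        = D * (M : Matrix (Fin 2) (Fin 2) F) := by
      ext i j
      fin_cases i <;> fin_cases j <;>
        simp [D, Matrix.mul_apply, Fin.sum_univ_two]
      all_goals first | ring1 | linear_combination (M 1 0) * hcc
    have e2 : ((G * dFun c M * G⁻¹ : Matrix.SpecialLinearGroup (Fin 2) F) :
        Matrix (Fin 2) (Fin 2) F) * (G : Matrix (Fin 2) (Fin 2) F)
        = (G : Matrix (Fin 2) (Fin 2) F) * (dFun c M : Matrix.SpecialLinearGroup (Fin 2) F) := by
      rw [← Matrix.SpecialLinearGroup.coe_mul, ← Matrix.SpecialLinearGroup.coe_mul,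
        inv_mul_cancel_right]
    show _ * ((G : Matrix (Fin 2) (Fin 2) F) * D) = (G : Matrix (Fin 2) (Fin 2) F) * D * _
    rw [← Matrix.mul_assoc, e2, Matrix.mul_assoc, e1, Matrix.mul_assoc]
  have hαM : ∀ M : Matrix.SpecialLinearGroup (Fin 2) F,
      α (pm M) = pm (G * dFun c M * G⁻¹) := by
    intro M
    rw [hα]
    show pm G * pslAut (dAut c) (pm M) * (pm G)⁻¹ = _
    rw [pslAut_pm, dAut_apply, map_mul, map_mul, map_inv]
  -- the hypotheses of the V0 lemma
  have hcomm : ∀ X : Matrix.SpecialLinearGroup (Fin 2) F, α (pm X) = pm X →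
      hm * (X : Matrix (Fin 2) (Fin 2) F) = (X : Matrix (Fin 2) (Fin 2) F) * hm ∨
      hm * (X : Matrix (Fin 2) (Fin 2) F) = -((X : Matrix (Fin 2) (Fin 2) F) * hm) := by
    intro X hX
    rw [hαM] at hX
    have hk := hkey X
    rcases (pm_eq_iff _ _).mp hX with h | h
    · left; rw [← hk, h]
    · right; rw [← hk, h, Matrix.neg_mul]
  obtain ⟨c', hc'⟩ := hV0 F h2 a b hab hm (hcomm (elA F) hA) (hcomm (elB a b hab) hB)
  have hDne : D ≠ 0 := by
    intro h0
    have : D 1 1 = 0 := by rw [h0]; rfl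
    simp [D] at this
  have hGD : ((G⁻¹ : Matrix.SpecialLinearGroup (Fin 2) F) : Matrix (Fin 2) (Fin 2) F) * hm = D := by
    show _ * ((G : Matrix (Fin 2) (Fin 2) F) * D) = D
    rw [← Matrix.mul_assoc, ← Matrix.SpecialLinearGroup.coe_mul, inv_mul_cancel,
      Matrix.SpecialLinearGroup.coe_one, Matrix.one_mul]
  have gen : ∀ X₀ : Matrix.SpecialLinearGroup (Fin 2) F,
      hm = c' • (X₀ : Matrix (Fin 2) (Fin 2) F) → ∀ x, α x = pm X₀ * x * (pm X₀)⁻¹ := by
    intro X₀ hX x
    have hc0 : c' ≠ 0 := by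
      intro h0
      apply hDne
      rw [← hGD, hX, h0, zero_smul, Matrix.mul_zero]
    obtain ⟨M, rfl⟩ := pm_surjective x
    rw [hαM]
    have hk := hkey M
    rw [hX, Matrix.mul_smul, Matrix.smul_mul] at hk
    have hk' := smul_right_injective _ hc0 hk
    have hk'' : G * dFun c M * G⁻¹ * X₀ = X₀ * M := by
      apply Subtype.ext
      rw [Matrix.SpecialLinearGroup.coe_mul, Matrix.SpecialLinearGroup.coe_mul X₀]
      exact hk'
    rw [eq_mul_inv_of_mul_eq hk'', map_mul, map_mul, map_inv]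
  rcases hc' with h | h | h | h
  · refine ⟨pm 1, ?_, gen 1 (by rw [h, Matrix.SpecialLinearGroup.coe_one])⟩
    rw [map_one]; exact Or.inl rfl
  · exact ⟨pm (elA F), Or.inr (Or.inl rfl), gen (elA F) h⟩
  · exact ⟨pm (elB a b hab), Or.inr (Or.inr (Or.inl rfl)), gen (elB a b hab) h⟩
  · refine ⟨pm (elA F * elB a b hab), Or.inr (Or.inr (Or.inr ?_)), gen (elA F * elB a b hab) ?_⟩
    · rw [map_mul]; rfl
    · rw [h, Matrix.SpecialLinearGroup.coe_mul]; rfl

end Cfsg.Agent.Lib.Helper42.JR
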