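import Mathlib
import Cfsg.Agent.Lib.Helper35.JR.Defs

/-!
[MULT] package of helper35's S3206 ("JR") project: a perfect central extension by a 2-group of a
group with elementary abelian Sylow 2-subgroups of order 8 whose involutions are fused in the
normalizer is trivial.
-/

set_option autoImplicit false

namespace Cfsg.Agent.Lib.Helper42.JR

open Cfsg.Agent.Lib.Helper35.JR

universe u

/-- An invariant alternating `±1`-valued form on an elementary abelian group of order 8 whose
non-identity elements are fused by isometries is trivial. -/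
theorem form_trivial {G : Type*} [Group G] (S : Subgroup G) (hcard : Nat.card S = 8)
    (hexp : ∀ x ∈ S, x ^ 2 = 1) (B : G → G → ℂˣ)
    (hmul : ∀ s ∈ S, ∀ t ∈ S, ∀ u ∈ S, B (s * t) u = B s u * B t u)
    (hone : ∀ u ∈ S, B 1 u = 1)
    (hanti : ∀ s ∈ S, ∀ t ∈ S, B s t * B t s = 1)
    (hself : ∀ s ∈ S, B s s = 1)
    (hfus : ∀ s ∈ S, s ≠ 1 → ∀ s' ∈ S, s' ≠ 1 →
      ∃ n ∈ Subgroup.normalizer (S : Set G), n * s * n⁻¹ = s')
    (hinv : ∀ n ∈ Subgroup.normalizer (S : Set G), ∀ s ∈ S, ∀ t ∈ S,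
      B (n * s * n⁻¹) (n * t * n⁻¹) = B s t) :
    ∀ s ∈ S, ∀ t ∈ S, B s t = 1 := by
  classical
  have hfin : Finite S := Nat.finite_of_card_ne_zero (by rw [hcard]; norm_num)
  have hsq : ∀ s ∈ S, ∀ t ∈ S, B s t * B s t = 1 := fun s hs t ht => by
    rw [← hmul s hs s hs t ht, ← pow_two, hexp s hs, hone t ht]
  have hsymm : ∀ s ∈ S, ∀ t ∈ S, B s t = B t s := fun s hs t ht =>
    (mul_left_cancel ((hanti s hs t ht).trans (hsq s hs t ht).symm)).symm
  have hpm : ∀ s ∈ S, ∀ t ∈ S, B s t = 1 ∨ B s t = -1 := by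
    intro s hs t ht
    have h2 := hsq s hs t ht
    have h3 : ((B s t : ℂˣ) : ℂ) * (B s t : ℂ) = 1 := by
      rw [← Units.val_mul, h2, Units.val_one]
    rcases mul_self_eq_one_iff.mp h3 with h | h
    · left; exact Units.ext h
    · right; exact Units.ext (by rw [h, Units.val_neg, Units.val_one])
  have hmulr : ∀ s ∈ S, ∀ t ∈ S, ∀ u ∈ S, B s (t * u) = B s t * B s u := by
    intro s hs t ht u hu
    rw [hsymm s hs (t * u) (S.mul_mem ht hu), hmul t ht u hu s hs, hsymm t ht s hs,
      hsymm u hu s hs]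
  have hinvel : ∀ x ∈ S, x⁻¹ = x := fun x hx => by
    rw [inv_eq_iff_mul_eq_one, ← pow_two]; exact hexp x hx
  have hsqel : ∀ x ∈ S, x * x = 1 := fun x hx => by rw [← pow_two]; exact hexp x hx
  by_contra hcon
  obtain ⟨x, hx, y, hy, hxy⟩ : ∃ x ∈ S, ∃ y ∈ S, B x y ≠ 1 := by
    by_contra h
    exact hcon (fun s hs t ht => by
      by_contra h'; exact h ⟨s, hs, t, ht, h'⟩)
  have hxyv : B x y = -1 := (hpm x hx y hy).resolve_left hxy
  have hyxv : B y x = -1 := by rw [hsymm y hy x hx]; exact hxyv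
  have hx1 : x ≠ 1 := by rintro rfl; exact hxy (hone y hy)
  have hy1 : y ≠ 1 := by
    rintro rfl; exact hxy (by rw [hsymm x hx 1 S.one_mem]; exact hone x hx)
  have hxney : x ≠ y := by rintro rfl; exact hxy (hself x hx)
  have hxy1 : x * y ≠ 1 := by
    intro h; apply hxney; rw [← hinvel y hy]; exact eq_inv_of_mul_eq_one_left h
  have hneg1 : (-1 : ℂˣ) * (-1) = 1 := by simp
  have hxyS : x * y ∈ S := S.mul_mem hx hy
  obtain ⟨w, hw, hwF⟩ : ∃ w ∈ S, w ∉ ({1, x, y, x * y} : Finset G) := by
    by_contra h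
    have hsub : (S : Set G) ⊆ (({1, x, y, x * y} : Finset G) : Set G) := fun w hw => by
      by_contra h'; exact h ⟨w, hw, h'⟩
    have h1 : Nat.card S ≤ 4 := by
      calc Nat.card S = (S : Set G).ncard := rfl
        _ ≤ ((({1, x, y, x * y} : Finset G)) : Set G).ncard :=
            Set.ncard_le_ncard hsub (Finset.finite_toSet _)
        _ = ({1, x, y, x * y} : Finset G).card := Set.ncard_coe_finset _
        _ ≤ 4 := Finset.card_le_four
    omega
  obtain ⟨r, hr, hrx, hry, v, hv, hwr⟩ : ∃ r ∈ S, B r x = 1 ∧ B r y = 1 ∧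
      ∃ v ∈ ({1, x, y, x * y} : Finset G), w = r * v := by
    rcases hpm w hw x hx with h1 | h1 <;> rcases hpm w hw y hy with h2 | h2
    · exact ⟨w, hw, h1, h2, 1, by simp, by rw [mul_one]⟩
    · refine ⟨w * x, S.mul_mem hw hx, ?_, ?_, x, by simp, ?_⟩
      · rw [hmul w hw x hx x hx, h1, hself x hx, mul_one]
      · rw [hmul w hw x hx y hy, h2, hxyv, hneg1]
      · rw [mul_assoc, hsqel x hx, mul_one]
    · refine ⟨w * y, S.mul_mem hw hy, ?_, ?_, y, by simp, ?_⟩
      · rw [hmul w hw y hy x hx, h1, hyxv, hneg1]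
      · rw [hmul w hw y hy y hy, h2, hself y hy, mul_one]
      · rw [mul_assoc, hsqel y hy, mul_one]
    · refine ⟨w * (x * y), S.mul_mem hw hxyS, ?_, ?_, x * y, by simp, ?_⟩
      · rw [hmul w hw (x * y) hxyS x hx, hmul x hx y hy x hx, h1, hself x hx, hyxv, one_mul,
          hneg1]
      · rw [hmul w hw (x * y) hxyS y hy, hmul x hx y hy y hy, h2, hself y hy, hxyv, mul_one,
          hneg1]
      · rw [mul_assoc, hsqel (x * y) hxyS, mul_one]
  have hFS : ∀ v ∈ ({1, x, y, x * y} : Finset G), v ∈ S := by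
    intro v hv
    simp only [Finset.mem_insert, Finset.mem_singleton] at hv
    rcases hv with rfl | rfl | rfl | rfl
    · exact S.one_mem
    · exact hx
    · exact hy
    · exact hxyS
  have hr1 : r ≠ 1 := by
    rintro rfl
    rw [one_mul] at hwr
    exact hwF (hwr ▸ hv)
  -- the subgroup of elements orthogonal to r
  let T : Subgroup G :=
    { carrier := {t | t ∈ S ∧ B r t = 1}
      mul_mem' := fun {a b} ha hb => ⟨S.mul_mem ha.1 hb.1, by
        rw [hmulr r hr a ha.1 b hb.1, ha.2, hb.2, mul_one]⟩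
      one_mem' := ⟨S.one_mem, by rw [hsymm r hr 1 S.one_mem]; exact hone r hr⟩
      inv_mem' := fun {a} ha => by
        show a⁻¹ ∈ S ∧ B r a⁻¹ = 1
        rw [hinvel a ha.1]; exact ha }
  have hTS : T ≤ S := fun t ht => ht.1
  have hxT : x ∈ T := ⟨hx, hrx⟩
  have hyT : y ∈ T := ⟨hy, hry⟩
  have hrT : r ∈ T := ⟨hr, hself r hr⟩
  have hFT : ∀ v ∈ ({1, x, y, x * y} : Finset G), v ∈ T := by
    intro v hv
    simp only [Finset.mem_insert, Finset.mem_singleton] at hv
    rcases hv with rfl | rfl | rfl | rfl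
    · exact T.one_mem
    · exact hxT
    · exact hyT
    · exact T.mul_mem hxT hyT
  have hwT : w ∈ T := by rw [hwr]; exact T.mul_mem hrT (hFT v hv)
  have hF4 : ({1, x, y, x * y} : Finset G).card = 4 := by
    rw [Finset.card_insert_of_notMem, Finset.card_insert_of_notMem,
      Finset.card_insert_of_notMem, Finset.card_singleton]
    · simp [hx1]
    · simp [hxney, hy1]
    · simp [Ne.symm hx1, Ne.symm hy1, Ne.symm hxy1]
  have hfinT : Finite T := Finite.of_injective (Subgroup.inclusion hTS)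
    (Subgroup.inclusion_injective hTS)
  have h5 : 5 ≤ Nat.card T := by
    have hsub : ((insert w ({1, x, y, x * y} : Finset G) : Finset G) : Set G) ⊆ (T : Set G) := by
      intro t ht
      rw [Finset.mem_coe, Finset.mem_insert] at ht
      rcases ht with rfl | ht
      · exact hwT
      · exact hFT t ht
    calc 5 = (insert w ({1, x, y, x * y} : Finset G)).card := by
          rw [Finset.card_insert_of_notMem hwF, hF4]
      _ = ((insert w ({1, x, y, x * y} : Finset G) : Finset G) : Set G).ncard :=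
          (Set.ncard_coe_finset _).symm
      _ ≤ (T : Set G).ncard := Set.ncard_le_ncard hsub (Set.toFinite _)
      _ = Nat.card T := rfl
  have hdvd : Nat.card T ∣ 8 := hcard ▸ Subgroup.card_dvd_of_le hTS
  have hT8 : Nat.card T = 8 := by
    obtain ⟨m, hm⟩ := hdvd
    rcases m with _ | _ | m
    · omega
    · omega
    · nlinarith
  have hTeq : T = S := Subgroup.eq_of_le_of_card_ge hTS (by rw [hcard, hT8])
  have hrad : ∀ t ∈ S, B r t = 1 := fun t ht => by
    have : t ∈ T := hTeq ▸ ht
    exact this.2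
  obtain ⟨n, hn, hnr⟩ := hfus r hr hr1 x hx hx1
  have hy' : n⁻¹ * y * n ∈ S := by
    rw [Subgroup.mem_set_normalizer_iff] at hn
    have := (hn (n⁻¹ * y * n)).mpr (by
      have e : n * (n⁻¹ * y * n) * n⁻¹ = y := by group
      rw [e]; exact hy)
    exact this
  have hfinal := hinv n hn r hr (n⁻¹ * y * n) hy'
  have e : n * (n⁻¹ * y * n) * n⁻¹ = y := by group
  rw [hnr, e, hrad _ hy'] at hfinal
  exact hxy hfinal

/-- A central element of 2-power order of a perfect finite group is trivial as soon as some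
commutative subgroup has odd index (transfer). -/
theorem central_two_elt_trivial {L : Type*} [Group L] [Finite L] (hperf : commutator L = ⊤)
    (H : Subgroup L) (hcomm : ∀ x ∈ H, ∀ y ∈ H, x * y = y * x) (hodd : ¬ 2 ∣ H.index)
    (z : L) (hz : z ∈ Subgroup.center L) (k : ℕ) (hzk : z ^ (2 ^ k) = 1) : z = 1 := by
  let _ : CommGroup H := { (inferInstance : Group H) with
    mul_comm := fun a b => Subtype.ext (hcomm a a.2 b b.2) }
  have htriv : ∀ g : L, MonoidHom.transfer (MonoidHom.id H) g = 1 := by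
    intro g
    have : g ∈ (MonoidHom.transfer (MonoidHom.id H)).ker :=
      Abelianization.commutator_subset_ker _ (hperf ▸ Subgroup.mem_top g)
    exact this
  have key : ∀ (k : ℕ) (g₀ : L), g₀⁻¹ * z ^ k * g₀ ∈ H → g₀⁻¹ * z ^ k * g₀ = z ^ k := by
    intro k g₀ _
    have hzk : z ^ k ∈ Subgroup.center L := Subgroup.pow_mem _ hz k
    rw [Subgroup.mem_center_iff] at hzk
    rw [mul_assoc, ← hzk g₀, inv_mul_cancel_left]
  have h1 := MonoidHom.transfer_eq_pow (ϕ := MonoidHom.id H) z key
  rw [htriv] at h1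
  have h2 : z ^ H.index = 1 := by
    have := congrArg Subtype.val h1
    simpa using this.symm
  have hcop : Nat.Coprime (2 ^ k) H.index :=
    Nat.Coprime.pow_left k ((Nat.Prime.coprime_iff_not_dvd Nat.prime_two).mpr hodd)
  have h3 : orderOf z ∣ 1 := by
    have := Nat.dvd_gcd (orderOf_dvd_of_pow_eq_one hzk) (orderOf_dvd_of_pow_eq_one h2)
    rwa [hcop] at this
  exact orderOf_eq_one_iff.mp (Nat.dvd_one.mp h3)

/-- The commutator `a b a⁻¹ b⁻¹`. -/
def cm {L : Type*} [Group L] (a b : L) : L := a * b * a⁻¹ * b⁻¹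

theorem cm_mul_central_left {L : Type*} [Group L] (a ζ b : L) (hζ : ∀ g : L, g * ζ = ζ * g) :
    cm (a * ζ) b = cm a b := by
  have h : ζ * b * ζ⁻¹ = b := by rw [← hζ b, mul_inv_cancel_right]
  calc cm (a * ζ) b = a * (ζ * b * ζ⁻¹) * a⁻¹ * b⁻¹ := by unfold cm; group
    _ = cm a b := by rw [h]; rfl

theorem cm_mul_central_right {L : Type*} [Group L] (a b ζ : L) (hζ : ∀ g : L, g * ζ = ζ * g) :
    cm a (b * ζ) = cm a b := by
  have h : ζ * a⁻¹ * ζ⁻¹ = a⁻¹ := by rw [← hζ a⁻¹, mul_inv_cancel_right]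
  calc cm a (b * ζ) = a * b * (ζ * a⁻¹ * ζ⁻¹) * b⁻¹ := by unfold cm; group
    _ = cm a b := by rw [h]; rfl

theorem cm_mul_left {L : Type*} [Group L] (a b d : L) (h : ∀ g : L, g * cm b d = cm b d * g) :
    cm (a * b) d = cm b d * cm a d := by
  have h' : a * cm b d * a⁻¹ = cm b d := by rw [h a, mul_inv_cancel_right]
  calc cm (a * b) d = a * cm b d * a⁻¹ * cm a d := by unfold cm; group
    _ = cm b d * cm a d := by rw [h']

theorem cm_conj {L : Type*} [Group L] (n a b : L) :
    cm (n * a * n⁻¹) (n * b * n⁻¹) = n * cm a b * n⁻¹ := by unfold cm; group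

theorem cm_swap {L : Type*} [Group L] (a b : L) : cm a b * cm b a = 1 := by unfold cm; group

theorem cm_self {L : Type*} [Group L] (a : L) : cm a a = 1 := by unfold cm; group

theorem cm_one_left {L : Type*} [Group L] (b : L) : cm 1 b = 1 := by unfold cm; group

theorem map_cm {L G : Type*} [Group L] [Group G] (π : L →* G) (a b : L) :
    π (cm a b) = cm (π a) (π b) := by unfold cm; simp

theorem pkgMult : PkgMult.{u} := by
  intro G _ _ hS8 hFus L _ _ Z _ hperf hZc hZp ⟨e⟩
  classical
  let π : L →* G := e.toMonoidHom.comp (QuotientGroup.mk' Z)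
  have hπsurj : Function.Surjective π := e.surjective.comp (QuotientGroup.mk'_surjective Z)
  have hπker : ∀ g : L, π g = 1 ↔ g ∈ Z := by
    intro g
    show e (QuotientGroup.mk' Z g) = 1 ↔ _
    rw [MulEquiv.map_eq_one_iff, QuotientGroup.mk'_apply, QuotientGroup.eq_one_iff]
  have hcen : ∀ ζ ∈ Z, ∀ g : L, g * ζ = ζ * g := fun ζ hζ g =>
    (Subgroup.mem_center_iff.mp (hZc hζ)) g
  obtain ⟨S⟩ : Nonempty (Sylow 2 G) := inferInstance
  obtain ⟨hScard, hSexp⟩ := hS8 S
  have hSinv : ∀ x ∈ (S : Subgroup G), x⁻¹ = x := fun x hx => by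
    rw [inv_eq_iff_mul_eq_one, ← pow_two]; exact hSexp x hx
  have hScomm : ∀ s ∈ (S : Subgroup G), ∀ t ∈ (S : Subgroup G), s * t = t * s := by
    intro s hs t ht
    calc s * t = (s * t)⁻¹ := (hSinv _ (mul_mem hs ht)).symm
      _ = t⁻¹ * s⁻¹ := mul_inv_rev s t
      _ = t * s := by rw [hSinv t ht, hSinv s hs]
  have hcmZ : ∀ a b : L, π a ∈ (S : Subgroup G) → π b ∈ (S : Subgroup G) → cm a b ∈ Z := by
    intro a b ha hb
    rw [← hπker, map_cm]
    unfold cm
    rw [hScomm _ ha _ hb, mul_inv_cancel_right, mul_inv_cancel]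
  have hidx : ¬ 2 ∣ ((S : Subgroup G).comap π).index := by
    rw [Subgroup.index_comap_of_surjective _ hπsurj]
    exact S.not_dvd_index
  have hcommS : ∀ a ∈ (S : Subgroup G).comap π, ∀ b ∈ (S : Subgroup G).comap π,
      a * b = b * a := by
    intro a ha b hb
    rw [Subgroup.mem_comap] at ha hb
    by_contra hne
    have hz0 : cm a b ≠ 1 := by
      intro h
      apply hne
      unfold cm at h
      rw [mul_inv_eq_one, mul_inv_eq_iff_eq_mul] at h
      exact h
    have hz0Z : cm a b ∈ Z := hcmZ a b ha hb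
    let _ : CommGroup Z := { (inferInstance : Group Z) with
      mul_comm := fun u v => Subtype.ext (hcen (v : L) v.2 (u : L)) }
    have : NeZero (Monoid.exponent Z) := ⟨Monoid.exponent_ne_zero_of_finite⟩
    obtain ⟨χ, hχ⟩ := CommGroup.exists_apply_ne_one_of_hasEnoughRootsOfUnity Z ℂ
      (a := ⟨cm a b, hz0Z⟩) (fun h => hz0 (congrArg Subtype.val h))
    let χ' : L → ℂˣ := fun l => if h : l ∈ Z then χ ⟨l, h⟩ else 1
    have hχ'Z : ∀ l (h : l ∈ Z), χ' l = χ ⟨l, h⟩ := fun l h => dif_pos h
    have hχ'mul : ∀ l ∈ Z, ∀ l' ∈ Z, χ' (l * l') = χ' l * χ' l' := by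
      intro l hl l' hl'
      rw [hχ'Z _ (Z.mul_mem hl hl'), hχ'Z _ hl, hχ'Z _ hl', ← map_mul]
      rfl
    have hχ'one : χ' 1 = 1 := by
      rw [hχ'Z _ Z.one_mem]
      exact map_one χ
    let lift : G → L := Function.surjInv hπsurj
    have hlift : ∀ g, π (lift g) = g := Function.surjInv_eq hπsurj
    let B : G → G → ℂˣ := fun g g' => χ' (cm (lift g) (lift g'))
    have hB : ∀ (a b : L), B (π a) (π b) = χ' (cm a b) := by
      intro a b
      have hζa : a⁻¹ * lift (π a) ∈ Z := by
        rw [← hπker, map_mul, map_inv, hlift, inv_mul_cancel]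
      have hζb : b⁻¹ * lift (π b) ∈ Z := by
        rw [← hπker, map_mul, map_inv, hlift, inv_mul_cancel]
      have ea : lift (π a) = a * (a⁻¹ * lift (π a)) := by rw [mul_inv_cancel_left]
      have eb : lift (π b) = b * (b⁻¹ * lift (π b)) := by rw [mul_inv_cancel_left]
      show χ' (cm (lift (π a)) (lift (π b))) = _
      rw [ea, eb, cm_mul_central_left _ _ _ (hcen _ hζa), cm_mul_central_right _ _ _ (hcen _ hζb)]
    have hB' : ∀ s t : G, B s t = χ' (cm (lift s) (lift t)) := fun s t => rfl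
    have key := form_trivial (S : Subgroup G) hScard hSexp B
      (by
        intro s hs t ht u hu
        have e1 : s * t = π (lift s * lift t) := by rw [map_mul, hlift, hlift]
        have e2 : u = π (lift u) := (hlift u).symm
        have hsS : π (lift s) ∈ (S : Subgroup G) := by rw [hlift]; exact hs
        have htS : π (lift t) ∈ (S : Subgroup G) := by rw [hlift]; exact ht
        have huS : π (lift u) ∈ (S : Subgroup G) := by rw [hlift]; exact hu
        rw [e1]
        conv_lhs => rw [e2]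
        rw [hB, hB' s u, hB' t u,
          cm_mul_left _ _ _ (hcen _ (hcmZ _ _ htS huS)),
          hχ'mul _ (hcmZ _ _ htS huS) _ (hcmZ _ _ hsS huS), mul_comm])
      (by
        intro u hu
        have e1 : (1 : G) = π 1 := (map_one π).symm
        have e2 : u = π (lift u) := (hlift u).symm
        rw [e1]
        conv_lhs => rw [e2]
        rw [hB, cm_one_left, hχ'one])
      (by
        intro s hs t ht
        have hsS : π (lift s) ∈ (S : Subgroup G) := by rw [hlift]; exact hs
        have htS : π (lift t) ∈ (S : Subgroup G) := by rw [hlift]; exact ht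
        rw [hB' s t, hB' t s, ← hχ'mul _ (hcmZ _ _ hsS htS) _ (hcmZ _ _ htS hsS), cm_swap,
          hχ'one])
      (by
        intro s hs
        rw [hB' s s, cm_self, hχ'one])
      (hFus S)
      (by
        intro n hn s hs t ht
        have hsS : π (lift s) ∈ (S : Subgroup G) := by rw [hlift]; exact hs
        have htS : π (lift t) ∈ (S : Subgroup G) := by rw [hlift]; exact ht
        have e1 : n * s * n⁻¹ = π (lift n * lift s * (lift n)⁻¹) := by
          rw [map_mul, map_mul, map_inv, hlift, hlift]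
        have e2 : n * t * n⁻¹ = π (lift n * lift t * (lift n)⁻¹) := by
          rw [map_mul, map_mul, map_inv, hlift, hlift]
        rw [e1, e2, hB, cm_conj, hB' s t]
        have hc := hcen _ (hcmZ _ _ hsS htS) (lift n)
        rw [hc, mul_inv_cancel_right])
    have hfin := key (π a) ha (π b) hb
    rw [hB, hχ'Z _ hz0Z] at hfin
    exact hχ hfin
  rw [Subgroup.eq_bot_iff_forall]
  intro z hz
  obtain ⟨k, hk⟩ := hZp ⟨z, hz⟩
  have hk' : z ^ (2 ^ k) = 1 := by
    have := congrArg Subtype.val hk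
    simpa using this
  exact central_two_elt_trivial hperf _ hcommS hidx z (hZc hz) k hk'

end Cfsg.Agent.Lib.Helper42.JR
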